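import Cfsg.Agent.PLengthComm.Reduce
import Cfsg.Agent.PLengthComm.Cases
import Cfsg.Agent.S1445
import Cfsg.Agent.S1459
import Cfsg.Agent.Components.Balance
import Cfsg.Agent.Hall.Pi
import Cfsg.Agent.Chev.Ree.GroupLemmas2

/-!
B&G 3.6: if a subgroup of prime order of the complement `R` has fixed points in `H` with cyclic Sylow subgroups,
then `[H, R]` has `p`-length one for every prime `p`.
-/

set_option autoImplicit false
set_option linter.unusedSectionVars false
set_option linter.style.haveILetI false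

namespace CfsgLib.PLengthComm

open scoped commutatorElement

universe u

variable {p : ℕ} [hp : Fact p.Prime] {G : Type u} [Group G] [Finite G]

theorem sup_le_normalizer {A B K : Subgroup G} (hA : A ≤ Subgroup.normalizer (K : Set G))
    (hB : B ≤ Subgroup.normalizer (K : Set G)) : A ⊔ B ≤ Subgroup.normalizer (K : Set G) := sup_le hA hB

theorem le_normalizer_sup {A B K : Subgroup G} (hA : K ≤ Subgroup.normalizer (A : Set G))
    (hB : K ≤ Subgroup.normalizer (B : Set G)) : K ≤ Subgroup.normalizer ((A ⊔ B : Subgroup G) : Set G) :=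
  fun g hg => Subgroup.mem_normalizer_iff_map_conj_eq.2 (show (A ⊔ B).map (MulAut.conj g).toMonoidHom = A ⊔ B by
    rw [Subgroup.map_sup]
    exact congrArg₂ _ (Subgroup.mem_normalizer_iff_map_conj_eq.1 (hA hg))
      (Subgroup.mem_normalizer_iff_map_conj_eq.1 (hB hg)))

/-- A subgroup of `K` is recognized inside `V ⊔ K`. -/
theorem le_of_le_sup {H R V K Q X : Subgroup G} (hd : Reduced p H R V K Q) (hX : X ≤ K) (h : H ≤ V ⊔ X) : K ≤ X := by
  intro k hk
  obtain ⟨v, hv, x, hx, he⟩ := exists_left_mul ((hX.trans hd.K_le).trans hd.H_V) (h (hd.K_le hk))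
  have hv1 : v ∈ (⊥ : Subgroup G) := hd.disj ▸ Subgroup.mem_inf.2 ⟨hv, by
    rw [show v = k * x⁻¹ by rw [← he]; group]
    exact K.mul_mem hk (K.inv_mem (hX hx))⟩
  rw [← he, Subgroup.mem_bot.1 hv1, one_mul]
  exact hx

/-- Induction at a proper invariant subgroup `V Q₀ P`: the group `[P, R]` centralizes `Q₀`. -/
theorem centralizes_of_small [Group.IsSolvable G] {n : ℕ} (ih : Below.{u} p n) (hodd : Odd (Nat.card G))
    {H R R₀ V K Q : Subgroup G} (h : Hyp H R R₀) (hn : Nat.card H = n) (hd : Reduced p H R V K Q)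
    {P Q₀ : Subgroup G} (hPp : IsPGroup p P) (hPK : P ≤ K) (hRP : R ≤ Subgroup.normalizer (P : Set G))
    (hQ₀ : Q₀ ≤ Q) (hPQ : P ≤ Subgroup.normalizer (Q₀ : Set G)) (hRQ : R ≤ Subgroup.normalizer (Q₀ : Set G))
    (hlt : ¬ H ≤ V ⊔ (Q₀ ⊔ P)) : ⁅P, R⁆ ≤ Subgroup.centralizer (Q₀ : Set G) := by
  set H₀ := V ⊔ (Q₀ ⊔ P) with hH₀
  have hH₀H : H₀ ≤ H := sup_le hd.V_le (sup_le ((hQ₀.trans hd.Q_le).trans hd.K_le) (hPK.trans hd.K_le))
  have hRH₀ : R ≤ Subgroup.normalizer (H₀ : Set G) := le_normalizer_sup hd.R_V (le_normalizer_sup hRQ hRP)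
  have hcard : Nat.card H₀ < n := hn ▸ lt_of_le_of_ne (Subgroup.card_le_of_le hH₀H) fun e =>
    hlt (Subgroup.eq_of_le_of_card_ge hH₀H e.ge).ge
  set S₀ : Subgroup G := ⁅H₀, R⁆ with hS₀
  have hPL : Cfsg.PLengthLE p 1 S₀ := ih G hodd H₀ R R₀ hcard (h.mono hH₀H hRH₀)
  have hS₀H₀ : S₀ ≤ H₀ := CoprimeAction.commutator_le_of_normalizer hRH₀
  have hH₀S₀ : H₀ ≤ Subgroup.normalizer (S₀ : Set G) := CoprimeAction.self_le_normalizer_commutator
  have hcore : Cfsg.pPrimeCore p S₀ = ⊥ := by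
    set Z := (Cfsg.pPrimeCore p S₀).map S₀.subtype with hZ
    haveI := PCore.pPrimeCore_characteristic p ↥S₀
    have hH₀Z : H₀ ≤ Subgroup.normalizer (Z : Set G) :=
      hH₀S₀.trans (BenderUnique.normalizer_le_normalizer_map S₀ _)
    have hZc : (Nat.card Z).Coprime p := by
      rw [hZ, Subgroup.card_map_of_injective S₀.subtype_injective]
      exact PCore.pPrimeCore_coprime p _
    have hVp : IsPGroup p V := fun v => ⟨1, Subtype.ext (by rw [pow_one]; simpa using hd.powV v v.2)⟩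
    have hVZ : V ⊓ Z = ⊥ := PCore.inf_eq_bot_of_isPGroup_of_coprime hVp hZc
    have hZH : Z ≤ H := (Subgroup.map_subtype_le _).trans (hS₀H₀.trans hH₀H)
    have hZV : Z ≤ V := by
      refine le_trans (le_inf hZH fun z hz => Subgroup.mem_centralizer_iff.2 fun v hv => ?_) hd.faith
      have h1 : v * z * v⁻¹ * z⁻¹ ∈ (⊥ : Subgroup G) := by
        rw [← hVZ]
        refine ⟨?_, Z.mul_mem ((Subgroup.mem_normalizer_iff.1 (hH₀Z (Subgroup.mem_sup_left hv)) z).1 hz) (Z.inv_mem hz)⟩
        rw [show v * z * v⁻¹ * z⁻¹ = v * (z * v⁻¹ * z⁻¹) by group]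
        exact V.mul_mem hv ((Subgroup.mem_normalizer_iff.1 (hd.H_V (hZH hz)) _).1 (V.inv_mem hv))
      rw [Subgroup.mem_bot, mul_inv_eq_one, mul_inv_eq_iff_eq_mul] at h1
      exact h1
    have hZbot : Z = ⊥ := by
      rw [← inf_eq_right.2 hZV]; exact hVZ
    exact (Subgroup.map_eq_bot_iff_of_injective _ S₀.subtype_injective).1 hZbot
  set O := (Cfsg.pCore p S₀).map S₀.subtype with hO
  haveI := PCore.pCore_characteristic p ↥S₀
  have hH₀O : H₀ ≤ Subgroup.normalizer (O : Set G) :=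
    hH₀S₀.trans (BenderUnique.normalizer_le_normalizer_map S₀ _)
  have hOp : IsPGroup p O := (PCore.isPGroup_pCore p _).map _
  have hidx := PCore.coprime_of_not_dvd (not_dvd_index_pCore hcore hPL)
  have hPR : ⁅P, R⁆ ≤ O := by
    have hle : ⁅P, R⁆ ≤ S₀ := Subgroup.commutator_mono (le_sup_right.trans le_sup_right) le_rfl
    intro y hy
    obtain ⟨k, hk⟩ := hPp ⟨y, (CoprimeAction.commutator_le_of_normalizer hRP) hy⟩
    exact ⟨⟨y, hle hy⟩, mem_of_pow_of_coprime (PCore.isPGroup_pCore p _) hidx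
      ⟨k, Subtype.ext (show y ^ p ^ k = 1 from congrArg Subtype.val hk)⟩ (Subgroup.pow_index_mem _ _), rfl⟩
  have hOQ : O ⊓ Q₀ = ⊥ := PCore.inf_eq_bot_of_isPGroup_of_coprime hOp
    (hd.Q_coprime.coprime_dvd_left (Subgroup.card_dvd_of_le hQ₀))
  intro y hy
  refine Subgroup.mem_centralizer_iff.2 fun q hq => ?_
  have hyP : y ∈ P := (CoprimeAction.commutator_le_of_normalizer hRP) hy
  have h1 : q * y * q⁻¹ * y⁻¹ ∈ (⊥ : Subgroup G) := by
    rw [← hOQ]
    refine ⟨O.mul_mem ((Subgroup.mem_normalizer_iff.1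
      (hH₀O (Subgroup.mem_sup_right (Subgroup.mem_sup_left hq))) y).1 (hPR hy)) (O.inv_mem (hPR hy)), ?_⟩
    rw [show q * y * q⁻¹ * y⁻¹ = q * (y * q⁻¹ * y⁻¹) by group]
    exact Q₀.mul_mem hq ((Subgroup.mem_normalizer_iff.1 (hPQ hyP) _).1 (Q₀.inv_mem hq))
  rw [Subgroup.mem_bot, mul_inv_eq_one, mul_inv_eq_iff_eq_mul] at h1
  exact h1

theorem no_reduced [Group.IsSolvable G] {n : ℕ} (ih : Below.{u} p n) (hodd : Odd (Nat.card G))
    {H R R₀ V K Q : Subgroup G} (h : Hyp H R R₀) (hn : Nat.card H = n) (hd : Reduced p H R V K Q) : False := by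
  have hVp : IsPGroup p V := fun v => ⟨1, Subtype.ext (by rw [pow_one]; simpa using hd.powV v v.2)⟩
  have hKV : ∀ k ∈ K, k ∈ V → k = 1 := fun k hk hkV => by
    rw [← Subgroup.mem_bot, ← hd.disj]; exact ⟨hkV, hk⟩
  have hV1 : V ≠ ⊥ := by
    intro hV
    refine hd.Q_ne (le_bot_iff.1 (hV ▸ fun q hq => hd.faith ⟨hd.K_le (hd.Q_le hq), ?_⟩))
    exact Subgroup.mem_centralizer_iff.2 fun v hv => by
      rw [Subgroup.mem_bot.1 (hV ▸ hv : v ∈ (⊥ : Subgroup G)), one_mul, mul_one]
  have hKlt : Nat.card K < n := by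
    refine hn ▸ lt_of_le_of_ne (Subgroup.card_le_of_le hd.K_le) fun e => hV1 ?_
    rw [← hd.disj, Subgroup.eq_of_le_of_card_ge hd.K_le e.ge, inf_eq_left.2 hd.V_le]
  have hPLK : Cfsg.PLengthLE p 1 K := by
    have := ih G hodd K R R₀ hKlt (h.mono hd.K_le hd.R_K)
    rwa [hd.commK] at this
  have hcopR : ∀ {X : Subgroup G}, X ≤ H → (Nat.card R).Coprime (Nat.card X) := fun hX =>
    h.coprime.symm.coprime_dvd_right (Subgroup.card_dvd_of_le hX)
  obtain ⟨Ps, hRP⟩ := CoprimeAction.exists_invariant_sylow hd.R_K (hcopR hd.K_le) (Or.inr inferInstance) p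
  set P := (Ps : Subgroup K).map K.subtype with hP
  have hPp : IsPGroup p P := Ps.isPGroup'.map _
  have hPK : P ≤ K := Subgroup.map_subtype_le _
  have hPQn : P ≤ Subgroup.normalizer (Q : Set G) := hPK.trans hd.K_Q
  have hPQ : P ⊓ Q = ⊥ := PCore.inf_eq_bot_of_isPGroup_of_coprime hPp hd.Q_coprime
  have hP1 : P ≠ ⊥ := by
    intro e
    have h1 : Nat.card P = p ^ (Nat.card K).factorization p := by
      rw [hP, Subgroup.card_map_of_injective K.subtype_injective]; exact Ps.card_eq_multiplicity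
    rw [e, Subgroup.card_bot] at h1
    exact (Nat.one_lt_pow (Nat.Prime.factorization_pos_of_dvd hp.out Nat.card_pos.ne' hd.dvdK).ne'
      hp.out.one_lt).ne h1
  -- the layer `Q P` is normal in `K`
  set Qs := Q.subgroupOf K with hQs
  haveI hQsn : Qs.Normal := Subgroup.normal_subgroupOf_of_le_normalizer hd.K_Q
  have hcoreQs : ∀ M : Subgroup K, M.Normal → (Nat.card M).Coprime p → M ≤ Qs := by
    intro M hM hMc x hx
    refine Subgroup.mem_subgroupOf.2 (hd.coreQ (M.map K.subtype) (Subgroup.map_subtype_le _) ?_ ?_ ⟨x, hx, rfl⟩)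
    · rw [← Subgroup.normal_subgroupOf_iff_le_normalizer (Subgroup.map_subtype_le _), Subgroup.subgroupOf,
        Subgroup.comap_map_eq_self_of_injective K.subtype_injective]
      exact hM
    · rwa [Subgroup.card_map_of_injective K.subtype_injective]
  have hU1 : (Cfsg.upperPSeries p K 1).1 = Qs := by
    rw [PLocalBasics.upperPSeries_one]
    refine le_antisymm (hcoreQs _ inferInstance (PCore.pPrimeCore_coprime p _)) (PCore.le_pPrimeCore hQsn ?_)
    exact hd.Q_coprime.coprime_dvd_left (PCore.card_subgroupOf_dvd _ _)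
  have hPQnorm : K ≤ Subgroup.normalizer ((Q ⊔ P : Subgroup G) : Set G) := by
    set T2 := (Cfsg.upperPSeries p K 2).1 with hT2
    haveI hT2n : T2.Normal := (Cfsg.upperPSeries p K 2).2
    have hPT : (Ps : Subgroup K) ≤ T2 := by
      intro y hy
      have hy3 : y ∈ (Cfsg.upperPSeries p K 3).1 := by
        rw [show (Cfsg.upperPSeries p K 3).1 = ⊤ from hPLK]; trivial
      obtain ⟨m, hm, hmc, -⟩ := PLengthProduct.pow_mem_of_succ (n := 2) hy3
      obtain ⟨k, hk⟩ := Ps.isPGroup' ⟨y, hy⟩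
      exact OddFitting.mem_of_coprime_pow (H := T2) ((hmc even_two).pow_right k).symm
        (show y ^ p ^ k = 1 from congrArg Subtype.val hk) hm
    have hU12 : (Cfsg.upperPSeries p K 1).1 ≤ T2 := by
      refine PLengthProduct.le_upper_succ (Cfsg.upperPSeries p K 1).2 fun x hx => ⟨1, by rwa [pow_one], ?_, fun _ => ⟨0, rfl⟩⟩
      exact fun h => absurd h (by decide)
    have hT2le : T2 ≤ Qs ⊔ (Ps : Subgroup K) := by
      rw [hT2, PLocalBasics.upperPSeries_succ_odd (n := 1) (by decide), ← hU1]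
      haveI := (Cfsg.upperPSeries p K 1).2
      refine (Subgroup.comap_mono (PCore.pCore_le_sylow
        (Ps.mapSurjective (QuotientGroup.mk'_surjective (Cfsg.upperPSeries p K 1).1)))).trans (le_of_eq ?_)
      rw [Sylow.coe_mapSurjective, Subgroup.comap_map_eq, QuotientGroup.ker_mk', sup_comm]
    have hT2eq : T2 = Qs ⊔ (Ps : Subgroup K) := le_antisymm hT2le (sup_le (hU1 ▸ hU12) hPT)
    have hmap : T2.map K.subtype = Q ⊔ P := by
      rw [hT2eq, Subgroup.map_sup, hQs, Subgroup.map_subgroupOf_eq_of_le hd.Q_le]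
    rw [← hmap, ← Subgroup.normal_subgroupOf_iff_le_normalizer (Subgroup.map_subtype_le _), Subgroup.subgroupOf,
      Subgroup.comap_map_eq_self_of_injective K.subtype_injective]
    exact hT2n
  -- centralizers in `K` of `Q`
  have hPCQ : ∀ y ∈ P, y ∈ Subgroup.centralizer (Q : Set G) → y = 1 := by
    intro y hy hyc
    set π : Set ℕ := {q | q ≠ p} with hπ
    have hcp : Cfsg.piCore πᶜ K = ⊥ := by
      have hNp : IsPGroup p (Cfsg.piCore πᶜ K) := by
        refine PCore.isPGroup_of_forall_coprime _ fun x hx hxo => ?_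
        by_contra hx1
        obtain ⟨q, hq, hqd⟩ := Nat.exists_prime_and_dvd (fun e => hx1 (orderOf_eq_one_iff.1 e))
        have := Hall.isPiSubgroup_piCore (π := πᶜ) q hq (hqd.trans (Subgroup.orderOf_dvd_natCard _ hx))
        have hqp : q = p := by simpa [hπ] using this
        subst hqp
        exact (Nat.Prime.coprime_iff_not_dvd hq).1 hxo.symm hqd
      have hN := hd.coreP ((Cfsg.piCore πᶜ K).map K.subtype) (Subgroup.map_subtype_le _) (by
        rw [← Subgroup.normal_subgroupOf_iff_le_normalizer (Subgroup.map_subtype_le _), Subgroup.subgroupOf,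
          Subgroup.comap_map_eq_self_of_injective K.subtype_injective]
        infer_instance) (hNp.map _)
      exact (Subgroup.map_eq_bot_iff_of_injective _ K.subtype_injective).1 hN
    have hpi : Cfsg.piCore π K ≤ Qs := hcoreQs _ inferInstance (PCore.coprime_of_not_dvd fun hd' =>
      Hall.isPiSubgroup_piCore p hp.out hd' rfl)
    have hin : (⟨y, hPK hy⟩ : K) ∈ Cfsg.piCore π K := Hall.centralizer_piCore_le hcp
      (Subgroup.mem_centralizer_iff.2 fun z hz =>
        Subtype.ext (Subgroup.mem_centralizer_iff.1 hyc z (Subgroup.mem_subgroupOf.1 (hpi hz))))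
    rw [← Subgroup.mem_bot, ← hPQ]
    exact ⟨hy, Subgroup.mem_subgroupOf.1 (hpi hin)⟩
  -- `K = Q P`
  have hKeq : K = Q ⊔ P := by
    by_contra hne
    have hQP : Q ⊔ P ≤ K := sup_le hd.Q_le hPK
    have hlt : ¬ H ≤ V ⊔ (Q ⊔ P) := fun hle => hne (le_antisymm (le_of_le_sup hd hQP hle) hQP)
    have hc := centralizes_of_small ih hodd h hn hd hPp hPK hRP le_rfl hPQn hd.R_Q hlt
    have hfix : ∀ y ∈ P, ∀ r ∈ R, r * y * r⁻¹ = y := fun y hy r hr => by
      have hm := Subgroup.commutator_mem_commutator hy hr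
      have h2 := hPCQ _ ((CoprimeAction.commutator_le_of_normalizer hRP) hm) (hc hm)
      rw [commutatorElement_eq_one_iff_mul_comm] at h2
      rw [← h2, mul_inv_cancel_right]
    -- every `[a, r]` centralizes `P` modulo `Q`
    have hcen : ∀ a ∈ K, ∀ r ∈ R, ∀ y ∈ P, ⁅a, r⁆ * y * ⁅a, r⁆⁻¹ * y⁻¹ ∈ Q := by
      intro a ha r hr y hy
      have ht : a⁻¹ * y * a ∈ Q ⊔ P := by
        have := (Subgroup.mem_normalizer_iff.1 (Subgroup.inv_mem _ (hPQnorm ha)) y).1 (Subgroup.mem_sup_right hy)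
        rwa [inv_inv] at this
      obtain ⟨q, hq, z, hz, hqz⟩ := exists_left_mul hPQn ht
      have hy' : r⁻¹ * y * r = y := by
        have := hfix y hy r⁻¹ (R.inv_mem hr); rwa [inv_inv] at this
      have hz' := hfix z hz r hr
      have e : ⁅a, r⁆ * y * ⁅a, r⁆⁻¹ * y⁻¹ = a * ((r * q * r⁻¹) * q⁻¹) * a⁻¹ := by
        calc ⁅a, r⁆ * y * ⁅a, r⁆⁻¹ * y⁻¹ = a * (r * (a⁻¹ * (r⁻¹⁻¹⁻¹ * y * r) * a) * r⁻¹) * a⁻¹ * y⁻¹ := by
              rw [commutatorElement_def]; group
          _ = a * (r * (q * z) * r⁻¹) * a⁻¹ * y⁻¹ := by rw [inv_inv, hy', hqz]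
          _ = a * ((r * q * r⁻¹) * (r * z * r⁻¹)) * a⁻¹ * y⁻¹ := by group
          _ = a * ((r * q * r⁻¹) * z) * a⁻¹ * y⁻¹ := by rw [hz']
          _ = a * ((r * q * r⁻¹) * q⁻¹ * (q * z)) * a⁻¹ * y⁻¹ := by group
          _ = a * ((r * q * r⁻¹) * q⁻¹) * a⁻¹ := by rw [hqz]; group
      rw [e]
      exact (Subgroup.mem_normalizer_iff.1 (hd.K_Q ha) _).1
        (Q.mul_mem ((Subgroup.mem_normalizer_iff.1 (hd.R_Q hr) q).1 hq) (Q.inv_mem hq))
    set Pb : Subgroup (↥K ⧸ Qs) := (Ps : Subgroup K).map (QuotientGroup.mk' Qs) with hPb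
    have hPbn : Pb.Normal := by
      have h1 : (Qs ⊔ (Ps : Subgroup K)).Normal := by
        have h2 := (Subgroup.normal_subgroupOf_iff_le_normalizer hQP).2 hPQnorm
        rwa [Subgroup.subgroupOf_sup hd.Q_le hPK, ← hQs,
          show P.subgroupOf K = (Ps : Subgroup K) from
            Subgroup.comap_map_eq_self_of_injective K.subtype_injective _] at h2
      have h3 : Pb = (Qs ⊔ (Ps : Subgroup K)).map (QuotientGroup.mk' Qs) := by
        rw [Subgroup.map_sup, QuotientGroup.map_mk'_self, bot_sup_eq]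
      rw [h3]
      exact h1.map _ (QuotientGroup.mk'_surjective Qs)
    have hOP : Cfsg.pCore p (↥K ⧸ Qs) = Pb := le_antisymm
      ((PCore.pCore_le_sylow (Ps.mapSurjective (QuotientGroup.mk'_surjective Qs))).trans
        (le_of_eq (Sylow.coe_mapSurjective _ _)))
      (PCore.le_pCore hPbn (Ps.isPGroup'.map _))
    have hhall : Subgroup.centralizer (Pb : Set (↥K ⧸ Qs)) ≤ Pb := by
      rw [← hOP]
      refine SolvTwoCore.centralizer_pCore_le fun M hM hMc => ?_
      have h1 : M.comap (QuotientGroup.mk' Qs) ≤ Qs := hcoreQs _ inferInstance (by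
        rw [PCore.card_comap_mk']
        exact (hd.Q_coprime.coprime_dvd_left (PCore.card_subgroupOf_dvd _ _)).mul_left hMc)
      rw [← Subgroup.map_comap_eq_self_of_surjective (QuotientGroup.mk'_surjective Qs) M, eq_bot_iff]
      exact (Subgroup.map_mono h1).trans (le_of_eq (QuotientGroup.map_mk'_self Qs))
    have hall : K ≤ ((Subgroup.centralizer (Pb : Set (↥K ⧸ Qs))).comap (QuotientGroup.mk' Qs)).map K.subtype := by
      conv_lhs => rw [← hd.commK]
      rw [Subgroup.commutator_le]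
      intro a ha r hr
      have hK' : ⁅a, r⁆ ∈ K := (CoprimeAction.commutator_le_of_normalizer hd.R_K)
        (Subgroup.commutator_mem_commutator ha hr)
      refine ⟨⟨_, hK'⟩, Subgroup.mem_centralizer_iff.2 ?_, rfl⟩
      rintro _ ⟨y, hy, rfl⟩
      rw [← map_mul, ← map_mul]
      refine (QuotientGroup.eq.2 (Subgroup.mem_subgroupOf.2 ?_)).symm
      have h1 := hcen a ha r hr (y : G) ⟨y, hy, rfl⟩
      have h2 := (Subgroup.mem_normalizer_iff.1 (Subgroup.inv_mem _ (hd.K_Q (K.mul_mem y.2 hK'))) _).1 (Q.inv_mem h1)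
      simp only [Subgroup.coe_mul, Subgroup.coe_inv]
      generalize ⁅a, r⁆ = c at h2 ⊢
      rwa [show ((y : G) * c)⁻¹ * (c * (y : G) * c⁻¹ * (y : G)⁻¹)⁻¹ * (((y : G) * c)⁻¹)⁻¹ =
        (c * (y : G))⁻¹ * ((y : G) * c) by group] at h2
    refine hne (le_antisymm (fun k hk => ?_) hQP)
    obtain ⟨k', hk', hke⟩ := hall hk
    obtain ⟨y, hy, hye⟩ := hhall (Subgroup.mem_comap.1 hk')
    have h3 : (y : G)⁻¹ * k' ∈ Q := by
      have := Subgroup.mem_subgroupOf.1 (QuotientGroup.eq.1 hye)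
      simpa using this
    rw [← hke, show K.subtype k' = (y : G) * ((y : G)⁻¹ * k') by simp]
    exact Subgroup.mul_mem _ (Subgroup.mem_sup_right ⟨y, hy, rfl⟩) (Subgroup.mem_sup_left h3)
  -- `P = [P, R]`
  set P₁ : Subgroup G := ⁅P, R⁆ with hP₁
  have hP₁P : P₁ ≤ P := CoprimeAction.commutator_le_of_normalizer hRP
  have hPeq : P₁ = P := by
    refine le_antisymm hP₁P fun y hy => ?_
    have hle : K ≤ Q ⊔ P₁ := by
      conv_lhs => rw [← hd.commK]
      rw [Subgroup.commutator_le]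
      intro a ha r hr
      obtain ⟨q, hq, z, hz, rfl⟩ := exists_left_mul hPQn (show a ∈ Q ⊔ P from hKeq ▸ ha)
      rw [show ⁅q * z, r⁆ = q * ⁅z, r⁆ * q⁻¹ * ⁅q, r⁆ by
        rw [commutatorElement_def, commutatorElement_def, commutatorElement_def]; group]
      refine Subgroup.mul_mem _ (Subgroup.mul_mem _ (Subgroup.mul_mem _ (Subgroup.mem_sup_left hq)
        (Subgroup.mem_sup_right (Subgroup.commutator_mem_commutator hz hr)))
        (Subgroup.inv_mem _ (Subgroup.mem_sup_left hq))) (Subgroup.mem_sup_left ?_)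
      exact (CoprimeAction.commutator_le_of_normalizer hd.R_Q) (Subgroup.commutator_mem_commutator hq hr)
    obtain ⟨q, hq, z, hz, he⟩ := exists_left_mul (hP₁P.trans hPQn) (hle (hPK hy))
    have hq1 : q ∈ (⊥ : Subgroup G) := hPQ ▸ Subgroup.mem_inf.2 ⟨by
      rw [show q = y * z⁻¹ by rw [← he]; group]
      exact P.mul_mem hy (P.inv_mem (hP₁P hz)), hq⟩
    rw [← he, Subgroup.mem_bot.1 hq1, one_mul]
    exact hz
  have hmin : ∀ Q₀ : Subgroup G, Q₀ ≤ Q → Q₀ ≠ Q → P ≤ Subgroup.normalizer (Q₀ : Set G) →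
      R ≤ Subgroup.normalizer (Q₀ : Set G) → P ≤ Subgroup.centralizer (Q₀ : Set G) := by
    intro Q₀ hle hne hPn hRn
    rw [← hPeq]
    refine centralizes_of_small ih hodd h hn hd hPp hPK hRP hle hPn hRn fun hle' => hne (le_antisymm hle fun q hq => ?_)
    have hK' := le_of_le_sup hd (sup_le (hle.trans hd.Q_le) hPK) hle' (hd.Q_le hq)
    obtain ⟨q₀, hq₀, y, hy, he⟩ := exists_left_mul hPn hK'
    have hy1 : y ∈ (⊥ : Subgroup G) := hPQ ▸ Subgroup.mem_inf.2 ⟨hy, by
      rw [show y = q₀⁻¹ * q by rw [← he]; group]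
      exact Q.mul_mem (Q.inv_mem (hle hq₀)) hq⟩
    rw [← he, Subgroup.mem_bot.1 hy1, mul_one]
    exact hq₀
  have hPnot : ¬ P ≤ Subgroup.centralizer (Q : Set G) := fun hc =>
    hP1 (le_bot_iff.1 fun y hy => Subgroup.mem_bot.2 (hPCQ y hy (hc hy)))
  -- `Q` is a `q`-group
  have hcopPR : (Nat.card ↥(P ⊔ R)).Coprime (Nat.card Q) := by
    have hdvd : Nat.card ↥(P ⊔ R) ∣ Nat.card P * Nat.card R := by
      haveI : (P.subgroupOf (Subgroup.normalizer (P : Set G))).Normal := Subgroup.normal_in_normalizer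
      have h2 := PCore.card_sup_dvd (P.subgroupOf (Subgroup.normalizer (P : Set G)))
        (R.subgroupOf (Subgroup.normalizer (P : Set G)))
      rw [← Subgroup.subgroupOf_sup hRP Subgroup.le_normalizer,
        Nat.card_congr (Subgroup.subgroupOfEquivOfLe (sup_le hRP Subgroup.le_normalizer)).toEquiv,
        Nat.card_congr (Subgroup.subgroupOfEquivOfLe hRP).toEquiv,
        Nat.card_congr (Subgroup.subgroupOfEquivOfLe (Subgroup.le_normalizer (H := P))).toEquiv, sup_comm,
        mul_comm] at h2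
      exact h2
    refine Nat.Coprime.coprime_dvd_left hdvd (Nat.Coprime.mul_left ?_ (hcopR (hd.Q_le.trans hd.K_le)))
    obtain ⟨a, ha⟩ := hPp.exists_card_eq
    rw [ha]
    exact (hd.Q_coprime.pow_right a).symm
  obtain ⟨q, hqfact, hQq⟩ : ∃ q : ℕ, Fact q.Prime ∧ IsPGroup q Q := by
    by_contra hno
    refine hPnot (Subgroup.le_centralizer_iff.1 fun z hz => ?_)
    have hle : Q ≤ Subgroup.centralizer (P : Set G) := by
      set C := (Subgroup.centralizer (P : Set G)).subgroupOf Q with hC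
      have hC1 : C.index = 1 := by
        refine Nat.eq_one_iff_not_exists_prime_dvd.2 fun s hs hsd => ?_
        haveI := Fact.mk hs
        obtain ⟨S, hS⟩ := CoprimeAction.exists_invariant_sylow (sup_le hPQn hd.R_Q) hcopPR (Or.inr inferInstance) s
        have hne : (S : Subgroup Q).map Q.subtype ≠ Q := fun e =>
          hno ⟨s, ⟨hs⟩, e ▸ (S.isPGroup'.map Q.subtype)⟩
        have hPS := hmin _ (Subgroup.map_subtype_le _) hne (le_sup_left.trans hS) (le_sup_right.trans hS)
        refine S.not_dvd_index (hsd.trans (Subgroup.index_dvd_of_le fun t ht => ?_))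
        exact Subgroup.mem_subgroupOf.2 (Subgroup.le_centralizer_iff.1 hPS ⟨t, ht, rfl⟩)
      exact Subgroup.subgroupOf_eq_top.1 (Subgroup.index_eq_one.1 hC1)
    exact hle hz
  have hqp : q ≠ p := fun e => hd.Q_ne (le_bot_iff.1 fun y hy => Subgroup.mem_bot.2 (by
    obtain ⟨k, hk⟩ := IsPGroup.iff_orderOf.1 hQq ⟨y, hy⟩
    rw [Subgroup.orderOf_mk] at hk
    rw [← orderOf_eq_one_iff]
    refine Nat.eq_one_of_dvd_coprimes hd.Q_coprime (Subgroup.orderOf_dvd_natCard Q hy) ?_
    rcases k.eq_zero_or_pos with rfl | hk'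
    · rw [hk, pow_zero]; exact one_dvd _
    · exact absurd hd.Q_coprime (Nat.Prime.not_coprime_iff_dvd.2
        ⟨p, hp.out, (e ▸ hk ▸ dvd_pow_self q hk'.ne' : p ∣ orderOf y).trans (Subgroup.orderOf_dvd_natCard Q hy),
          dvd_rfl⟩)))
  haveI := hqfact
  -- `Q = [Q, P]`, of class at most two
  have hcopPQ : (Nat.card P).Coprime (Nat.card Q) := by
    obtain ⟨a, ha⟩ := hPp.exists_card_eq
    rw [ha]
    exact (hd.Q_coprime.pow_right a).symm
  have hcomm : ⁅Q, P⁆ = Q := by
    by_contra hne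
    have hle : ⁅Q, P⁆ ≤ Q := CoprimeAction.commutator_le_of_normalizer hPQn
    have hc := hmin _ hle hne (CoprimeAction.le_normalizer_commutator hPQn)
      (PCore.le_normalizer_commutator hd.R_Q hRP)
    have h1 := CoprimeAction.commutator_commutator_eq hPQn hcopPQ (Or.inr inferInstance)
    rw [Subgroup.commutator_eq_bot_iff_le_centralizer.2 (Subgroup.le_centralizer_iff.1 hc)] at h1
    exact hPnot (Subgroup.le_centralizer_iff.1 (Subgroup.commutator_eq_bot_iff_le_centralizer.1 h1.symm))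
  have hsmall : ∀ Y : Subgroup G, Y ≤ Q → Y ≠ Q → Q ≤ Subgroup.normalizer (Y : Set G) →
      P ≤ Subgroup.normalizer (Y : Set G) → R ≤ Subgroup.normalizer (Y : Set G) →
      P ≤ Subgroup.centralizer (Y : Set G) ∧ Y ≤ Subgroup.centralizer (Q : Set G) := by
    intro Y hle hne hQn hPn hRn
    have hc := hmin Y hle hne hPn hRn
    refine ⟨hc, ?_⟩
    have h1 : ⁅⁅Y, Q⁆, P⁆ = ⊥ := by
      rw [eq_bot_iff, ← Subgroup.commutator_eq_bot_iff_le_centralizer.2 (Subgroup.le_centralizer_iff.1 hc)]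
      exact Subgroup.commutator_mono (CoprimeAction.commutator_le_of_normalizer hQn) le_rfl
    have h2 : ⁅⁅P, Y⁆, Q⁆ = ⊥ := by
      rw [Subgroup.commutator_eq_bot_iff_le_centralizer.2 hc, Subgroup.commutator_bot_left]
    have h3 := Subgroup.commutator_commutator_eq_bot_of_rotate h2 h1
    rw [hcomm] at h3
    exact Subgroup.le_centralizer_iff.1 (Subgroup.commutator_eq_bot_iff_le_centralizer.1 h3)
  have hder := hsmall ⁅Q, Q⁆ (CoprimeAction.commutator_le_of_normalizer Subgroup.le_normalizer)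
    (PCore.commutator_ne_of_isPGroup hQq hQq Subgroup.le_normalizer hd.Q_ne)
    (PCore.le_normalizer_commutator Subgroup.le_normalizer Subgroup.le_normalizer)
    (PCore.le_normalizer_commutator hPQn hPQn) (PCore.le_normalizer_commutator hd.R_Q hd.R_Q)
  have hpow : ∀ y ∈ Q, y ^ q ∈ ⁅Q, Q⁆ := by
    intro y hy
    set F := (frattini Q).map Q.subtype with hF
    have hFQ : F ≤ Q := Subgroup.map_subtype_le _
    have hFne : F ≠ Q := by
      intro e
      haveI : Nontrivial Q := (Subgroup.nontrivial_iff_ne_bot Q).2 hd.Q_ne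
      have h1 : frattini Q = ⊤ := Subgroup.map_injective Q.subtype_injective (by
        rw [← MonoidHom.range_eq_map, Subgroup.range_subtype]; exact e)
      obtain ⟨M, hM, -⟩ := (eq_top_or_exists_le_coatom (⊥ : Subgroup Q)).resolve_left bot_ne_top
      exact hM.1 (top_unique (h1 ▸ frattini_le_coatom hM))
    have hFn := BenderUnique.normalizer_le_normalizer_map Q (frattini Q)
    have hc := hmin F hFQ hFne (hPQn.trans hFn) (hd.R_Q.trans hFn)
    have hzF : y ^ q ∈ F := ⟨(⟨y, hy⟩ : Q) ^ q, CoprimeAction.pow_mem_frattini hQq _, rfl⟩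
    set T := Q ⊔ P with hT
    haveI : (Q.subgroupOf T).Normal :=
      Subgroup.normal_subgroupOf_of_le_normalizer (sup_le Subgroup.le_normalizer hPQn)
    have hmapQ := Subgroup.map_subgroupOf_eq_of_le (le_sup_left : Q ≤ T)
    have hmapP := Subgroup.map_subgroupOf_eq_of_le (le_sup_right : P ≤ T)
    have hcompl : Subgroup.IsComplement' (Q.subgroupOf T) (P.subgroupOf T) := by
      refine Subgroup.isComplement'_of_disjoint_and_mul_eq_univ ?_ (Set.eq_univ_of_forall fun t => ?_)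
      · rw [disjoint_iff, eq_bot_iff]
        rintro z ⟨hz1, hz2⟩
        have h4 : (z : G) ∈ (⊥ : Subgroup G) := hPQ ▸ Subgroup.mem_inf.2 ⟨hz2, hz1⟩
        exact Subgroup.mem_bot.2 (Subtype.ext (Subgroup.mem_bot.1 h4))
      · obtain ⟨a, ha, b, hb, he⟩ := exists_left_mul hPQn t.2
        exact ⟨⟨a, le_sup_left (a := Q) (b := P) ha⟩, ha, ⟨b, le_sup_right (a := Q) (b := P) hb⟩, hb, Subtype.ext he⟩
    have hle : Q.subgroupOf T ≤ commutator T := by
      intro z hz
      have h4 : ((⁅Q.subgroupOf T, P.subgroupOf T⁆ : Subgroup T).map T.subtype) = Q := by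
        rw [Subgroup.map_commutator, hmapQ, hmapP, hcomm]
      obtain ⟨z', hz', he⟩ := h4.ge (show (z : G) ∈ Q from hz)
      rw [T.subtype_injective he] at hz'
      exact Subgroup.commutator_mono le_top le_top hz'
    have hcop : (Nat.card (Q.subgroupOf T)).Coprime (Q.subgroupOf T).index := by
      rw [hcompl.symm.index_eq_card, Nat.card_congr (Subgroup.subgroupOfEquivOfLe (le_sup_left : Q ≤ T)).toEquiv,
        Nat.card_congr (Subgroup.subgroupOfEquivOfLe (le_sup_right : P ≤ T)).toEquiv]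
      exact hcopPQ.symm
    obtain ⟨-, hfix⟩ := (Cfsg.Agent.S1459.result (G := T)).1 _ _ inferInstance hcop hcompl hle
    have hzin := hfix (x := ⟨y ^ q, le_sup_left (a := Q) (b := P) (hFQ hzF)⟩) ⟨hFQ hzF,
      Subgroup.mem_centralizer_iff.2 fun z hz => Subtype.ext
        (Subgroup.mem_centralizer_iff.1 (Subgroup.le_centralizer_iff.1 hc hzF) z hz)⟩
    have h5 : ((⁅Q.subgroupOf T, Q.subgroupOf T⁆ : Subgroup T).map T.subtype) = ⁅Q, Q⁆ := by
      rw [Subgroup.map_commutator, hmapQ]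
    exact h5 ▸ (⟨_, hzin, rfl⟩ : y ^ q ∈ (⁅Q.subgroupOf T, Q.subgroupOf T⁆ : Subgroup T).map T.subtype)
  -- a generator of `R₀`
  obtain ⟨⟨x, hx⟩, hx1⟩ := Subgroup.ne_bot_iff_exists_ne_one.1 (show R₀ ≠ ⊥ from fun e => by
    have := h.prime; rw [e, Subgroup.card_bot] at this; exact Nat.not_prime_one this)
  have hxord : orderOf x = Nat.card R₀ := by
    refine (h.prime.eq_one_or_self_of_dvd _ (Subgroup.orderOf_dvd_natCard R₀ hx)).resolve_left fun e => hx1 ?_
    exact Subtype.ext (orderOf_eq_one_iff.1 e)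
  have hzp : Subgroup.zpowers x = R₀ :=
    Subgroup.eq_of_le_of_card_ge (Subgroup.zpowers_le.2 hx) (by rw [Nat.card_zpowers, hxord])
  have hCx : Subgroup.centralizer (R₀ : Set G) = Subgroup.centralizer ({x} : Set G) := by
    rw [← hzp, centralizer_zpowers]
  have hQH : Q ≤ H := hd.Q_le.trans hd.K_le
  have hfixV : V ⊓ Subgroup.centralizer (R₀ : Set G) ≠ ⊥ := by
    intro hfix
    -- `R₀` centralizes `K`
    set T := H ⊔ R₀ with hT
    set H' := H.subgroupOf T with hH'
    set R' := R₀.subgroupOf T with hR'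
    have hHT : H ≤ T := le_sup_left
    have hRT : R₀ ≤ T := le_sup_right
    haveI : H'.Normal := Subgroup.normal_subgroupOf_of_le_normalizer
      (sup_le Subgroup.le_normalizer (h.le.trans h.le_normalizer))
    have hmapH : H'.map T.subtype = H := Subgroup.map_subgroupOf_eq_of_le hHT
    have hmapR : R'.map T.subtype = R₀ := Subgroup.map_subgroupOf_eq_of_le hRT
    have hsup : H' ⊔ R' = ⊤ := by
      rw [hH', hR', ← Subgroup.subgroupOf_sup hHT hRT, ← hT, Subgroup.subgroupOf_self]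
    have hcoreH' : Cfsg.pPrimeCore p ↥H' = ⊥ := by
      rw [← PCore.map_pPrimeCore_equiv (Subgroup.subgroupOfEquivOfLe hHT).symm, hd.core, Subgroup.map_bot]
    have hFp : IsPGroup p (Cfsg.fittingOf H') :=
      ((PCore.isPGroup_pCore p _).to_le (Components.fitting_le_pCore hcoreH')).map _
    have hFV : (Cfsg.fittingOf H').map T.subtype ≤ V := by
      refine hd.pcore _ ?_ ?_ (hFp.map _)
      · rw [← hmapH]; exact Subgroup.map_mono (Subgroup.map_subtype_le _)
      · rw [← hmapH]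
        exact (Subgroup.map_mono (Subgroup.le_normalizer.trans
          (BenderUnique.normalizer_le_normalizer_fittingOf H'))).trans (Subgroup.le_normalizer_map _)
    have hres := Cfsg.Agent.S1445.result (G := T) (hodd.of_dvd_nat (Subgroup.card_subgroup_dvd_card T)) H' R' hsup
      (by
        rw [Nat.card_congr (Subgroup.subgroupOfEquivOfLe hHT).toEquiv,
          Nat.card_congr (Subgroup.subgroupOfEquivOfLe hRT).toEquiv]
        exact (h.coprime.coprime_dvd_right (Subgroup.card_dvd_of_le h.le)))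
      (fun z hz hz1 => by
        have hzR : Subgroup.zpowers z = R' := by
          refine Subgroup.eq_of_le_of_card_ge (Subgroup.zpowers_le.2 hz) ?_
          rw [Nat.card_zpowers]
          have hd1 := Subgroup.orderOf_dvd_natCard R' hz
          rw [Nat.card_congr (Subgroup.subgroupOfEquivOfLe hRT).toEquiv] at hd1 ⊢
          exact ((h.prime.eq_one_or_self_of_dvd _ hd1).resolve_left (by rwa [orderOf_eq_one_iff])).ge
        rw [← hzR, centralizer_zpowers])
      (by
        rw [eq_bot_iff]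
        rintro z ⟨hz1, hz2⟩
        have h1 : (z : G) ∈ (⊥ : Subgroup G) := hfix ▸ Subgroup.mem_inf.2 ⟨hFV ⟨z, hz1, rfl⟩,
          Subgroup.mem_centralizer_iff.2 fun r hr =>
            congrArg Subtype.val (Subgroup.mem_centralizer_iff.1 hz2 ⟨r, hRT hr⟩ hr)⟩
        exact Subgroup.mem_bot.2 (Subtype.ext (Subgroup.mem_bot.1 h1)))
    have hHR₀ : ⁅H, R₀⁆ ≤ V := by
      refine le_trans ?_ ((Subgroup.map_mono hres).trans hFV)
      rw [Subgroup.map_commutator, hmapH, hmapR]
    have hQR : Q ≤ Subgroup.centralizer (R₀ : Set G) := by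
      refine Subgroup.commutator_eq_bot_iff_le_centralizer.1 (le_bot_iff.1 ?_)
      refine le_trans (le_inf ((Subgroup.commutator_mono hQH le_rfl).trans hHR₀) ?_) hd.disj.le
      exact (CoprimeAction.commutator_le_of_normalizer (h.le.trans hd.R_Q)).trans hd.Q_le
    haveI hQcyc : IsCyclic Q := h.cyclic (le_inf hQH hQR) hQq
    have hQab : ⁅Q, Q⁆ = ⊥ := Subgroup.commutator_eq_bot_iff_le_centralizer.2 fun a ha => by
      refine Subgroup.mem_centralizer_iff.2 fun b hb => ?_
      haveI : IsMulCommutative Q := IsCyclic.isMulCommutative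
      exact congrArg Subtype.val (mul_comm' (⟨b, hb⟩ : Q) ⟨a, ha⟩)
    obtain ⟨g, hg⟩ := hQcyc.exists_ofOrder_eq_natCard
    have hQcard : Nat.card Q = q := by
      have h6 : orderOf g ∣ q := orderOf_dvd_of_pow_eq_one
        (Subtype.ext (Subgroup.mem_bot.1 (hQab ▸ hpow g g.2)))
      rw [hg] at h6
      refine ((hqfact.out.eq_one_or_self_of_dvd _ h6).resolve_left fun e => hd.Q_ne ?_)
      exact Subgroup.card_eq_one.1 e
    refine hPnot ?_
    rw [← hPeq, hP₁, Subgroup.commutator_le]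
    exact fun y hy r hr => Config.prime_section_bot hQcard (hPQn hy) (hd.R_Q hr)
  have hVC : IsCyclic ↥(V ⊓ Subgroup.centralizer (R₀ : Set G)) :=
    h.cyclic (le_inf (inf_le_left.trans hd.V_le) inf_le_right) (hVp.to_le inf_le_left)
  have hcardC : Nat.card ↥(V ⊓ Subgroup.centralizer ({x} : Set G)) ≤ p := by
    rw [← hCx]
    obtain ⟨g, hg⟩ := hVC.exists_ofOrder_eq_natCard
    rw [← hg]
    exact Nat.le_of_dvd hp.out.pos (orderOf_dvd_of_pow_eq_one (Subtype.ext (by
      rw [Subgroup.coe_pow]; exact hd.powV _ (Subgroup.mem_inf.1 g.2).1)))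
  have hfixP : P ⊓ Subgroup.centralizer ({x} : Set G) = ⊥ := by
    rw [← hCx]
    by_contra hne
    set A := V ⊓ Subgroup.centralizer (R₀ : Set G) with hA
    set B := P ⊓ Subgroup.centralizer (R₀ : Set G) with hB
    have hBA : B ≤ Subgroup.normalizer (A : Set G) := fun b hb =>
      Subgroup.inf_normalizer_le_normalizer_inf ⟨(hPK.trans hd.K_le).trans hd.H_V (Subgroup.mem_inf.1 hb).1,
        Subgroup.le_normalizer (Subgroup.mem_inf.1 hb).2⟩
    have hBp : IsPGroup p B := hPp.to_le inf_le_left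
    have hAp : IsPGroup p A := hVp.to_le inf_le_left
    haveI hcyc : IsCyclic ↥(A ⊔ B) := h.cyclic (sup_le (inf_le_inf_right _ hd.V_le)
      (inf_le_inf_right _ (hPK.trans hd.K_le))) (hAp.to_sup_of_normal_left' hBp hBA)
    obtain ⟨a, ha⟩ := exists_prime_orderOf_dvd_card' p (Uniq.dvd_card_of_ne_bot hAp hfixV)
    obtain ⟨b, hb⟩ := exists_prime_orderOf_dvd_card' p (Uniq.dvd_card_of_ne_bot hBp hne)
    have heq : Subgroup.zpowers (a : G) = Subgroup.zpowers (b : G) :=
      Chev.Ree.GL0.eq_of_card_eq (A := A ⊔ B) (Subgroup.zpowers_le.2 (Subgroup.mem_sup_left a.2))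
        (Subgroup.zpowers_le.2 (Subgroup.mem_sup_right b.2)) (by
          rw [Nat.card_zpowers, Nat.card_zpowers, Subgroup.orderOf_coe, Subgroup.orderOf_coe, ha, hb])
    have haP : (a : G) ∈ P := (heq.le.trans (Subgroup.zpowers_le.2 (Subgroup.mem_inf.1 b.2).1))
      (Subgroup.mem_zpowers _)
    have h1 := hKV _ (hPK haP) (Subgroup.mem_inf.1 a.2).1
    rw [← Subgroup.orderOf_coe, h1, orderOf_one] at ha
    exact hp.out.one_lt.ne ha
  have hx0 : x ∈ R := h.le hx
  have hrne : ∀ {s : ℕ}, s.Prime → s ∣ Nat.card H → Nat.card R₀ ≠ s := fun hs hsd e =>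
    (Nat.Prime.not_coprime_iff_dvd.2 ⟨_, hs, hsd, e ▸ Subgroup.card_dvd_of_le h.le⟩) h.coprime
  have hqdvd : q ∣ Nat.card H :=
    (Uniq.dvd_card_of_ne_bot hQq hd.Q_ne).trans (Subgroup.card_dvd_of_le hQH)
  have hpdvd : p ∣ Nat.card H := hd.dvdK.trans (Subgroup.card_dvd_of_le hd.K_le)
  have hconf : Config p q (Nat.card R₀) V Q P x :=
    { q_ne_p := hqp
      r_prime := h.prime
      r_ne_p := hrne hp.out hpdvd
      r_ne_q := hrne hqfact.out hqdvd
      r_ne_two := fun e => (Nat.not_even_iff_odd.2 hodd)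
        (even_iff_two_dvd.2 (e ▸ Subgroup.card_subgroup_dvd_card R₀))
      commV := hd.commV
      powV := hd.powV
      pgroupP := hPp
      qgroupQ := hQq
      ord_x := hxord
      Q_V := hQH.trans hd.H_V
      P_V := (hPK.trans hd.K_le).trans hd.H_V
      x_V := hd.R_V hx0
      P_Q := hPQn
      x_Q := hd.R_Q hx0
      x_P := hRP hx0
      faith := fun y hy hyc => hKV y (hKeq ▸ hy) (hd.faith ⟨hd.K_le (hKeq ▸ hy), hyc⟩)
      fpfQ := hd.fpfQ
      comm := hcomm
      Q_ne := hd.Q_ne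
      derived_central := hder.2
      derived_fix := hder.1
      pow_mem := hpow
      cardC := hcardC
      fixP := hfixP
      cycQ := hCx ▸ h.cyclic (inf_le_inf_right _ hQH) (hQq.to_le inf_le_left) }
  exact hconf.false hodd

/-- B&G 3.6. -/
theorem pLength_commutator : ∀ n : ℕ, Below.{u} p n := by
  intro n
  induction n with
  | zero => exact fun G _ _ _ _ H R R₀ hlt => absurd hlt (Nat.not_lt_zero _)
  | succ n ih =>
    intro G _ _ _ hodd H R R₀ hlt h
    rcases (Nat.lt_succ_iff.1 hlt).lt_or_eq with hlt' | heq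
    · exact ih G hodd H R R₀ hlt' h
    by_cases hHR : ⁅H, R⁆ = H
    · rw [hHR]
      by_contra hnot
      obtain ⟨V, K, Q, hd⟩ := exists_reduced ih hodd h heq hHR hnot
      exact no_reduced ih hodd h heq hd
    · have hle : ⁅H, R⁆ ≤ H := CoprimeAction.commutator_le_of_normalizer h.le_normalizer
      have hcard : Nat.card ↥(⁅H, R⁆ : Subgroup G) < n := heq ▸ lt_of_le_of_ne (Subgroup.card_le_of_le hle) fun e =>
        hHR (Subgroup.eq_of_le_of_card_ge hle e.ge)
      have := ih G hodd _ R R₀ hcard (h.mono hle (CoprimeAction.le_normalizer_commutator h.le_normalizer))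
      rwa [CoprimeAction.commutator_commutator_eq h.le_normalizer h.coprime.symm (Or.inr inferInstance)] at this

theorem main [Group.IsSolvable G] (hodd : Odd (Nat.card G)) {H R R₀ : Subgroup G} (h : Hyp H R R₀) :
    Cfsg.PLengthLE p 1 ↥⁅H, R⁆ :=
  pLength_commutator (Nat.card H + 1) G hodd H R R₀ (Nat.lt_succ_self _) h

end CfsgLib.PLengthComm
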